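import Cfsg.Agent.Lib.AutPOm.BalGroup

/-!
# The `p'`-core criterion, in a form allowing small exceptional fixed point groups
-/

set_option autoImplicit false

namespace Cfsg.Agent.Lib.BalPSL

open Cfsg.Agent.Lib.AutPOm

variable {K : Type*} [Group K]

/-- The criterion in terms of a subgroup of the fixed points, with a weak form of simplicity. -/
theorem bal_weak [Finite K] (hcent : Subgroup.center K = ⊥) (x : MulAut K) {p : ℕ} [hp : Fact p.Prime]
    (A : Subgroup (MulAut K)) (hinn : ∀ k : K, MulAut.conj k ∈ A) (E : Subgroup K) (hEL : E ≤ fixP x)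
    (hEnorm : ∀ k ∈ fixP x, ∀ e ∈ E, k * e * k⁻¹ ∈ E)
    (hEs : p ∣ Nat.card (fixP x) → ∀ M : Subgroup K, M ≤ fixP x → (∀ k ∈ fixP x, ∀ a ∈ M, k * a * k⁻¹ ∈ M) →
      (∀ e ∈ M, orderOf e ∣ p → e = 1) → ∀ a ∈ M, a ∈ E → a = 1)
    (hEne : E ≠ ⊥)
    (hcl : ∀ β : MulAut K, (∀ e ∈ E, β e = e) → β ^ p = 1) :
    (∃ N : Subgroup ↥(A ⊓ Subgroup.centralizer {x}), N.Normal ∧ (Nat.card N).Coprime p ∧ N ≠ ⊥) ↔
      Nat.Coprime p (Nat.card (fixP x)) := by
  classical
  set L := fixP x with hL
  have hmemC : ∀ k : L, MulAut.conj k.1 ∈ A ⊓ Subgroup.centralizer {x} := by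
    intro k
    refine ⟨hinn _, ?_⟩
    change MulAut.conj k.1 ∈ Subgroup.centralizer {x}
    rw [Subgroup.mem_centralizer_singleton_iff]
    have h1 := conj_conj_aut x k.1
    have h2 : x k.1 = k.1 := k.2
    rw [h2] at h1
    calc MulAut.conj k.1 * x = (x * MulAut.conj k.1 * x⁻¹) * x := by rw [h1]
      _ = x * MulAut.conj k.1 := by group
  let cL : L →* ↥(A ⊓ Subgroup.centralizer {x}) :=
    { toFun := fun k => ⟨MulAut.conj k.1, hmemC k⟩
      map_one' := by
        apply Subtype.ext
        exact map_one _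
      map_mul' := fun a b => by
        apply Subtype.ext
        exact map_mul _ _ _ }
  have hcL : ∀ k : L, (cL k).1 = MulAut.conj k.1 := fun _ => rfl
  have hcLinj : Function.Injective cL := by
    rw [injective_iff_map_eq_one]
    intro k hk
    apply Subtype.ext
    apply eq_one_of_conj_eq_one hcent
    have := congrArg Subtype.val hk
    exact this
  have hact : ∀ (a : ↥(A ⊓ Subgroup.centralizer {x})) (k : L), a.1 k.1 ∈ L := by
    intro a k
    have h1 : a.1 ∈ Subgroup.centralizer {x} := a.2.2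
    rw [Subgroup.mem_centralizer_singleton_iff] at h1
    have h2 := congrArg (fun φ : MulAut K => φ k.1) h1
    have h3 : x k.1 = k.1 := k.2
    change a.1 (x k.1) = x (a.1 k.1) at h2
    rw [h3] at h2
    exact h2.symm
  have hconjL : ∀ (a : ↥(A ⊓ Subgroup.centralizer {x})) (k : L),
      a * cL k * a⁻¹ = cL ⟨a.1 k.1, hact a k⟩ := by
    intro a k
    apply Subtype.ext
    exact conj_conj_aut a.1 k.1
  constructor
  · rintro ⟨N, hN, hcop, hne⟩
    rw [Nat.Prime.coprime_iff_not_dvd hp.out]
    intro hdvd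
    apply hne
    -- the part of `N` in the fixed points
    let M : Subgroup K := (N.comap cL).map L.subtype
    have hMc : Nat.card M ∣ Nat.card N := by
      have h1 : Nat.card M = Nat.card (N.comap cL) := Subgroup.card_map_of_injective L.subtype_injective
      rw [h1]
      apply Subgroup.card_dvd_of_injective (cL.subgroupComap N)
      intro a b hab
      apply Subtype.ext
      apply hcLinj
      exact congrArg Subtype.val hab
    have hMcop : (Nat.card M).Coprime p := Nat.Coprime.coprime_dvd_left hMc hcop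
    have hcE : (∀ e ∈ M, orderOf e ∣ p → e = 1) := by
      intro e he hd
      have h1 : orderOf (⟨e, he⟩ : M) ∣ Nat.card M := orderOf_dvd_natCard _
      rw [Subgroup.orderOf_mk] at h1
      have h2 : orderOf e ∣ Nat.gcd (Nat.card M) p := Nat.dvd_gcd h1 hd
      rw [hMcop, Nat.dvd_one, orderOf_eq_one_iff] at h2
      exact h2
    have hML : ∀ a ∈ M, a ∈ L := by
      rintro _ ⟨a, -, rfl⟩
      exact a.2
    have hMnorm : ∀ k ∈ L, ∀ a ∈ M, k * a * k⁻¹ ∈ M := by
      rintro k hk _ ⟨a, ha, rfl⟩
      refine ⟨⟨k, hk⟩ * a * ⟨k, hk⟩⁻¹, ?_, rfl⟩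
      change cL _ ∈ N
      rw [map_mul, map_mul, map_inv]
      exact hN.conj_mem _ ha _
    have hME : ∀ a ∈ M, a ∈ E → a = 1 := hEs hdvd M hML hMnorm hcE
    have hMb : M = ⊥ := by
      rw [eq_bot_iff]
      intro a ha
      have hfixE : ∀ t ∈ E, (MulAut.conj a) t = t := by
        intro t ht
        have h3 : a * t * a⁻¹ * t⁻¹ ∈ M := by
          have h4 : t * a⁻¹ * t⁻¹ ∈ M := hMnorm t (hEL ht) _ (inv_mem ha)
          have h5 := mul_mem ha h4
          have e : a * t * a⁻¹ * t⁻¹ = a * (t * a⁻¹ * t⁻¹) := by group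
          rw [e]
          exact h5
        have h4 : a * t * a⁻¹ * t⁻¹ ∈ E := mul_mem (hEnorm a (hML a ha) t ht) (inv_mem ht)
        have h5 := hME _ h3 h4
        rw [MulAut.conj_apply]
        exact mul_inv_eq_one.mp h5
      have h4 := hcl _ hfixE
      have h5 : MulAut.conj (a ^ p) = 1 := by
        rw [map_pow]
        exact h4
      have h6 : a ^ p = 1 := eq_one_of_conj_eq_one hcent h5
      exact hcE a ha (orderOf_dvd_of_pow_eq_one h6)
    rw [eq_bot_iff]
    intro n hn
    have hfix : ∀ k : L, n.1 k.1 = k.1 := by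
      intro k
      have h1 : cL ⟨n.1 k.1, hact n k⟩ * (cL k)⁻¹ ∈ N := by
        rw [← hconjL]
        have h2 : n * cL k * n⁻¹ * (cL k)⁻¹ = n * (cL k * n⁻¹ * (cL k)⁻¹) := by group
        rw [h2]
        exact mul_mem hn (hN.conj_mem _ (inv_mem hn) _)
      rw [← map_inv, ← map_mul] at h1
      have h3 : (⟨n.1 k.1, hact n k⟩ * k⁻¹ : L).1 ∈ M := ⟨_, h1, rfl⟩
      rw [hMb] at h3
      have h4 : n.1 k.1 * k.1⁻¹ = 1 := h3
      exact mul_inv_eq_one.mp h4
    have h3 := hcl n.1 (fun e he => hfix ⟨e, hEL he⟩)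
    have h4 : n ^ p = 1 := by
      apply Subtype.ext
      rw [Subgroup.coe_pow, h3]
      rfl
    have h5 : orderOf (⟨n, hn⟩ : N) ∣ Nat.card N := orderOf_dvd_natCard _
    rw [Subgroup.orderOf_mk] at h5
    have h6 : orderOf n ∣ Nat.gcd (Nat.card N) p := Nat.dvd_gcd h5 (orderOf_dvd_of_pow_eq_one h4)
    rw [hcop, Nat.dvd_one, orderOf_eq_one_iff] at h6
    rw [h6]
    exact one_mem _
  · intro hcop
    refine ⟨cL.range, ?_, ?_, ?_⟩
    · constructor
      rintro _ ⟨k, rfl⟩ a
      exact ⟨⟨a.1 k.1, hact a k⟩, (hconjL a k).symm⟩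
    · apply Nat.Coprime.coprime_dvd_left (Subgroup.card_range_dvd cL) hcop.symm
    · intro h0
      apply hEne
      rw [eq_bot_iff]
      intro e he
      have h1 : cL ⟨e, hEL he⟩ ∈ cL.range := ⟨_, rfl⟩
      rw [h0, Subgroup.mem_bot] at h1
      have h2 : (⟨e, hEL he⟩ : L) = 1 := hcLinj (by rw [h1, map_one])
      exact congrArg Subtype.val h2

/-- Every normal subgroup without involutions is trivial. -/
def NoOdd (G : Type*) [Group G] : Prop :=
  ∀ M : Subgroup G, M.Normal → (∀ a ∈ M, orderOf a ∣ 2 → a = 1) → M = ⊥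

lemma noOdd_of_simple {G : Type*} [Group G] [IsSimpleGroup G] (h : ∃ t : G, orderOf t = 2) : NoOdd G := by
  intro M hM hno
  rcases hM.eq_bot_or_eq_top with h1 | h1
  · exact h1
  · exfalso
    obtain ⟨t, ht⟩ := h
    have h2 := hno t (by rw [h1]; trivial) (by rw [ht])
    rw [h2, orderOf_one] at ht
    omega

lemma NoOdd.congr {G H : Type*} [Group G] [Group H] (e : G ≃* H) (h : NoOdd G) : NoOdd H := by
  intro M hM hno
  have h1 : M.comap e.toMonoidHom = ⊥ := by
    apply h
    · exact hM.comap _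
    · intro a ha hd
      have h2 : orderOf (e a) = orderOf a := MulEquiv.orderOf_eq e a
      have h3 := hno (e a) ha (by rw [h2]; exact hd)
      exact e.injective (by rw [h3, map_one])
  rw [eq_bot_iff]
  intro a ha
  have h2 : e.symm a ∈ M.comap e.toMonoidHom := by
    change e (e.symm a) ∈ M
    rwa [e.apply_symm_apply]
  rw [h1, Subgroup.mem_bot] at h2
  rw [Subgroup.mem_bot]
  exact e.symm.injective (by rw [h2, map_one])

/-- The form of `hEs` obtained from the structure of `E`. -/
lemma hEs_of_noOdd (E : Subgroup K) (h : NoOdd E) (M : Subgroup K) (hn : ∀ k ∈ E, ∀ a ∈ M, k * a * k⁻¹ ∈ M)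
    (hM : ∀ e ∈ M, orderOf e ∣ 2 → e = 1) : ∀ a ∈ M, a ∈ E → a = 1 := by
  have h1 : M.subgroupOf E = ⊥ := by
    apply h
    · constructor
      intro a ha g
      rw [Subgroup.mem_subgroupOf] at ha ⊢
      exact hn g.1 g.2 _ ha
    · intro a ha hd
      rw [Subgroup.mem_subgroupOf] at ha
      apply Subtype.ext
      apply hM _ ha
      rw [Subgroup.orderOf_coe]
      exact hd
  intro a ha haE
  have h2 : (⟨a, haE⟩ : E) ∈ M.subgroupOf E := by
    rw [Subgroup.mem_subgroupOf]
    exact ha
  rw [h1, Subgroup.mem_bot] at h2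
  exact congrArg Subtype.val h2

/-- A finite group all of whose elements have order prime to `2` has no involutions, and conversely;
product of two groups with `NoOdd`. -/
lemma NoOdd.prod {G H : Type*} [Group G] [Group H] [Finite G] [Finite H] (hG : NoOdd G) (hH : NoOdd H) :
    NoOdd (G × H) := by
  intro M hM hno
  -- `M` has odd order
  have hodd : ∀ a ∈ M, Odd (orderOf a) := by
    intro a ha
    by_contra hn
    rw [Nat.not_odd_iff_even] at hn
    obtain ⟨k, hk⟩ := hn
    have hpos : 0 < orderOf a := orderOf_pos a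
    have h1 : orderOf (a ^ k) = 2 := by
      rw [orderOf_pow' a (by omega)]
      have : Nat.gcd (orderOf a) k = k := by
        rw [hk]
        simp
      rw [this, hk]
      have hk0 : 0 < k := by omega
      rw [Nat.add_div_right _ hk0, Nat.div_self hk0]
    have h2 := hno _ (pow_mem ha k) (by rw [h1])
    rw [h2, orderOf_one] at h1
    omega
  have hpr1 : M.map (MonoidHom.fst G H) = ⊥ := by
    apply hG
    · exact hM.map _ Prod.fst_surjective
    · rintro _ ⟨a, ha, rfl⟩ hd
      have h1 : orderOf (MonoidHom.fst G H a) ∣ orderOf a := orderOf_map_dvd _ a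
      have h2 := hodd a ha
      have h3 : Odd (orderOf (MonoidHom.fst G H a)) := Odd.of_dvd_nat h2 h1
      have h4 : orderOf (MonoidHom.fst G H a) = 1 := by
        have h5 : orderOf (MonoidHom.fst G H a) ≤ 2 := Nat.le_of_dvd (by norm_num) hd
        have h6 : orderOf (MonoidHom.fst G H a) ≠ 0 := h3.pos.ne'
        have h7 : orderOf (MonoidHom.fst G H a) ≠ 2 := by
          intro h
          rw [h] at h3
          exact absurd h3 (by decide)
        omega
      exact orderOf_eq_one_iff.mp h4
  have hpr2 : M.map (MonoidHom.snd G H) = ⊥ := by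
    apply hH
    · exact hM.map _ Prod.snd_surjective
    · rintro _ ⟨a, ha, rfl⟩ hd
      have h1 : orderOf (MonoidHom.snd G H a) ∣ orderOf a := orderOf_map_dvd _ a
      have h2 := hodd a ha
      have h3 : Odd (orderOf (MonoidHom.snd G H a)) := Odd.of_dvd_nat h2 h1
      have h4 : orderOf (MonoidHom.snd G H a) = 1 := by
        have h5 : orderOf (MonoidHom.snd G H a) ≤ 2 := Nat.le_of_dvd (by norm_num) hd
        have h6 : orderOf (MonoidHom.snd G H a) ≠ 0 := h3.pos.ne'
        have h7 : orderOf (MonoidHom.snd G H a) ≠ 2 := by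
          intro h
          rw [h] at h3
          exact absurd h3 (by decide)
        omega
      exact orderOf_eq_one_iff.mp h4
  rw [eq_bot_iff]
  intro a ha
  rw [Subgroup.mem_bot]
  have h1 : a.1 = 1 := by
    have : MonoidHom.fst G H a ∈ M.map (MonoidHom.fst G H) := ⟨a, ha, rfl⟩
    rw [hpr1, Subgroup.mem_bot] at this
    exact this
  have h2 : a.2 = 1 := by
    have : MonoidHom.snd G H a ∈ M.map (MonoidHom.snd G H) := ⟨a, ha, rfl⟩
    rw [hpr2, Subgroup.mem_bot] at this
    exact this
  exact Prod.ext h1 h2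

/-- A subgroup of `K` which is the image of `G` with kernel the centre is `G` modulo its centre. -/
noncomputable def rangeEquiv {G : Type*} [Group G] (f : G →* K) (hker : f.ker = Subgroup.center G) :
    f.range ≃* G ⧸ Subgroup.center G :=
  (QuotientGroup.quotientMulEquivOfEq hker.symm).trans (QuotientGroup.quotientKerEquivRange f) |>.symm

end Cfsg.Agent.Lib.BalPSL
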